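import Cfsg.Agent.TwoF.XL.Defs
import Cfsg.Agent.TwoF.XL.Fac
import Cfsg.Agent.TwoF.XS.Red.Dt
import Cfsg.Agent.S0252
import Cfsg.Agent.S0253
import Cfsg.Agent.S0254
import Cfsg.Agent.S0255
import Cfsg.Agent.S0256
import Cfsg.Agent.S2087
import Cfsg.Agent.S2088

/-!
# TwoF / XL, the reduction (1): linear groups (helper30)
-/

set_option autoImplicit false
set_option maxHeartbeats 200000

namespace Cfsg.Agent.TwoF.XL.Red

open Cfsg.Agent.TwoF.XE Cfsg.Agent.TwoF.Gen Cfsg.Agent.TwoF.XS.Red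

variable {p : ℕ} [Fact p.Prime]

theorem dt_mk {S : Type} [Group S] [Finite S] {d z s o : ℕ} (h1 : LB p S d)
    (h2 : ∀ (K : Type) [Group K] [Finite K] (π : K →* S), IsStemExtension π → Nat.card π.ker ∣ z) (h3 : 0 < z)
    (h4 : Nat.card S = s) (h5 : Nat.card (Out S) = o) (h6 : Subgroup.center S = ⊥) : Dt p S d z s o :=
  ⟨h1, h2, h3, h4, by rw [card_aut h6, h4, h5, mul_comm], h6⟩

theorem eq_div_mul {a b c s : ℕ} (ha : 0 < a) (hb : 0 < b) (h : a * (b * s) = c) : s = c / (a * b) := by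
  rw [← h, ← mul_assoc, Nat.mul_div_cancel_left _ (Nat.mul_pos ha hb)]

theorem card_prod3 (a b c : ℕ) : Nat.card (Multiplicative (ZMod a × ZMod b × ZMod c)) = a * (b * c) := by
  rw [Nat.card_congr Multiplicative.toAdd, Nat.card_prod, Nat.card_prod, Nat.card_zmod, Nat.card_zmod, Nat.card_zmod]

theorem not_dvd_pow {r f : ℕ} (hr : r.Prime) (hrp : r ≠ p) : ¬ p ∣ r ^ f := fun h =>
  hrp ((Nat.prime_dvd_prime_iff_eq Fact.out hr).1 ((Fact.out : p.Prime).dvd_of_dvd_pow h)).symm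

/-- the order of `PSL_n(q)` -/
def sL (n q : ℕ) : ℕ := (∏ i ∈ Finset.range n, (q ^ n - q ^ i)) / (Nat.gcd n (q - 1) * (q - 1))

theorem card_sL {F : Type} [Field F] [Fintype F] {n q : ℕ} (hF : Fintype.card F = q) (hn : 2 ≤ n) :
    Nat.card (PL n F) = sL n q := by
  have hq : 1 < q := hF ▸ Fintype.one_lt_card
  have h := S0243.result hF n hn
  rw [Fin.prod_univ_eq_prod_range (fun i => q ^ n - q ^ i) n] at h
  exact eq_div_mul (Nat.gcd_pos_of_pos_left _ (by omega)) (by omega) h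

/-! ### dimension two -/

set_option synthInstance.maxSize 100000 in
set_option synthInstance.maxHeartbeats 400000 in
theorem tab_two : ∀ r < 1024, (∀ t ∈ [2, 3, 5, 7, 11, 13, 17, 19, 23, 29, 31], r % t = 0 → t = r) → ∀ f < 10, 1 ≤ f →
    5 ≤ r ^ f → r ^ f < 1024 → r ^ f ≠ 9 →
    big ((r ^ f - 1) / Nat.gcd 2 (r ^ f - 1)) (Nat.gcd 2 (r ^ f - 1)) (sL 2 (r ^ f)) (Nat.gcd 2 (r ^ f - 1) * f) = true ∧
      ∀ t ∈ [2, 3, 5, 7, 11, 13, 17, 19, 23], t = r ∨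
        ok ((r ^ f - 1) / Nat.gcd 2 (r ^ f - 1)) (Nat.gcd 2 (r ^ f - 1)) (sL 2 (r ^ f)) (Nat.gcd 2 (r ^ f - 1) * f) t
          = true ∨
        (t = 2 ∧ (r ^ f = 5 ∨ r ^ f = 7 ∨ (r ^ f % 2 = 1 ∧ 11 ≤ r ^ f ∧ r ^ f ≤ 81))) ∨ (t = 3 ∧ r ^ f = 8) := by
  decide +kernel

theorem row_two (H : Small) {F : Type} [Field F] [Fintype F] {r f : ℕ} (hr : r.Prime) (hf : 1 ≤ f)
    (hF : Fintype.card F = r ^ f) (h4 : 4 ≤ r ^ f) (hrp : r ≠ p) (hp : ¬ IsPSLChar p (PL 2 F))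
    (ha : ¬ IsAlternating (PL 2 F)) : Row p (PL 2 F) := by
  have := finL 2 F
  have h5 : r ^ f ≠ 4 := fun h => ha ⟨5, le_rfl, S0252.result (hF.trans h)⟩
  have h9 : r ^ f ≠ 9 := fun h => ha ⟨6, by omega, S0254.result (hF.trans h)⟩
  have he : ¬ ExL 2 (r ^ f) := by simp [ExL, h5, h9]
  have D := dt_mk (lbL2 hF (not_dvd_pow hr hrp) h4 he) (card_ker_dvd' (S2086.result hF 2 le_rfl (fun _ => h4) he))
    (Nat.gcd_pos_of_pos_left _ two_pos) (card_sL hF le_rfl) (outL2 hr hf hF h4) (centerL le_rfl fun _ => hF ▸ h4)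
  by_cases hQ : 1024 ≤ r ^ f
  · refine D.row_gen (q := r ^ f) (m := 1) (by omega) (by rwa [pow_one]) ?_ ?_
    · have h1 := cardL_le hF le_rfl
      rw [card_sL hF le_rfl] at h1
      have h2 : Nat.gcd 2 (r ^ f - 1) * f ≤ (r ^ f) ^ 1 :=
        (Nat.mul_le_mul_right _ (gcd_two_le _)).trans ((two_mul_le hr.two_le).trans (pow_one _).ge)
      exact (Nat.mul_le_mul h1 h2).trans (pow_add _ _ _).ge
    · have h1 := Nat.div_le_div_left (a := r ^ f - 1) (gcd_two_le (r ^ f - 1)) (Nat.gcd_pos_of_pos_left _ two_pos)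
      rw [pow_one]
      omega
  have h1 : r < 1024 := (Nat.le_self_pow (by omega) r).trans_lt (not_le.1 hQ)
  have h2 : f < 10 := by
    by_contra h2
    have := (Nat.pow_le_pow_left hr.two_le 10).trans (Nat.pow_le_pow_right hr.pos (not_lt.1 h2))
    omega
  have h3 : ∀ t ∈ [2, 3, 5, 7, 11, 13, 17, 19, 23, 29, 31], r % t = 0 → t = r := fun t ht h =>
    (hr.eq_one_or_self_of_dvd t (Nat.dvd_of_mod_eq_zero h)).resolve_left (by rintro rfl; simp at ht)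
  refine (D.row_or hrp (tab_two r h1 h3 f h2 hf (by omega) (not_le.1 hQ) h9)).elim id ?_
  rw [← hF]
  rintro (⟨rfl, h | h | ⟨h6, h7, h8⟩⟩ | ⟨rfl, h⟩)
  · exact (ha ⟨5, le_rfl, S0253.result h⟩).elim
  · exact (hp ⟨ZMod 2, inferInstance, inferInstance, inferInstance, 3, by omega, fun h => absurd h (by omega),
      S0255.result h (ZMod.card 2)⟩).elim
  · exact H.ltwo F (Nat.odd_iff.2 h6) h7 h8
  · exact H.lp3 F 2 (.inl ⟨rfl, h⟩)

/-! ### dimension at least three -/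

/-- the dimension bound -/
def dL (m q : ℕ) : ℕ := if m = 2 ∧ (q = 2 ∨ q = 4) then 0 else q ^ m - 1
/-- the multiplier -/
def zL (m q : ℕ) : ℕ := if m = 2 ∧ q = 2 then 2 else if m = 2 ∧ q = 4 then 48 else Nat.gcd (m + 1) (q - 1)

set_option synthInstance.maxSize 100000 in
set_option synthInstance.maxHeartbeats 400000 in
theorem tab_lin : ∀ r ∈ [2, 3, 5, 7, 11, 13, 17, 19, 23, 29, 31], ∀ f < 5, ∀ m < 10, 1 ≤ f → 2 ≤ m → (r ^ f) ^ m < 1024 →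
    ¬ (m = 3 ∧ r ^ f = 2) →
    big (dL m (r ^ f)) (zL m (r ^ f)) (sL (m + 1) (r ^ f)) (Nat.gcd (m + 1) (r ^ f - 1) * (2 * f)) = true ∧
      ∀ t ∈ [2, 3, 5, 7, 11, 13, 17, 19, 23], t = r ∨
        ok (dL m (r ^ f)) (zL m (r ^ f)) (sL (m + 1) (r ^ f)) (Nat.gcd (m + 1) (r ^ f - 1) * (2 * f)) t = true ∨
        (t = 2 ∧ ((m + 1 = 3 ∧ (r ^ f = 3 ∨ r ^ f = 5)) ∨ (m + 1 = 4 ∧ r ^ f = 3))) ∨
        (t = 3 ∧ ((m + 1 = 3 ∧ r ^ f = 4) ∨ (m + 1 = 6 ∧ r ^ f = 2))) := by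
  decide +kernel

theorem dt_lin {F : Type} [Field F] [Fintype F] {r f m : ℕ} (hr : r.Prime) (hf : 1 ≤ f)
    (hF : Fintype.card F = r ^ f) (hm : 2 ≤ m) (h42 : ¬ (m = 3 ∧ r ^ f = 2)) (hrp : r ≠ p) :
    Dt p (PL (m + 1) F) (dL m (r ^ f)) (zL m (r ^ f)) (sL (m + 1) (r ^ f))
      (Nat.gcd (m + 1) (r ^ f - 1) * (2 * f)) := by
  have := finL (m + 1) F
  have he : ¬ (m = 2 ∧ r ^ f = 2) → ¬ (m = 2 ∧ r ^ f = 4) → ¬ ExL (m + 1) (r ^ f) := fun h1 h2 => by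
    simp only [ExL, Set.mem_insert_iff, Set.mem_singleton_iff, Prod.mk.injEq]
    omega
  refine dt_mk ?_ (fun K _ _ π hπ => ?_) ?_ (card_sL hF (by omega)) (outL hr hf hF (by omega))
    (centerL (by omega) (by omega))
  · unfold dL
    split_ifs with h
    · exact lb_zero
    · exact lbL hF (not_dvd_pow hr hrp) (by omega) (he (by omega) (by omega))
  · unfold zL
    split_ifs with h h'
    · obtain ⟨rfl, h⟩ := h
      exact card_ker_dvd' (S2087.result (hF.trans h)) K π hπ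
    · obtain ⟨rfl, h'⟩ := h'
      exact (card_ker_dvd (S2088.result (hF.trans h')) K π hπ).trans (card_prod3 3 4 4).dvd
    · exact card_ker_dvd' (S2086.result hF (m + 1) (by omega) (by omega) (he h h')) K π hπ
  · unfold zL
    split_ifs <;> positivity

theorem row_lin (H : Small) {F : Type} [Field F] [Fintype F] {r f m : ℕ} (hr : r.Prime) (hf : 1 ≤ f)
    (hF : Fintype.card F = r ^ f) (hm : 2 ≤ m) (hrp : r ≠ p) (ha : ¬ IsAlternating (PL (m + 1) F)) :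
    Row p (PL (m + 1) F) := by
  have := finL (m + 1) F
  have h42 : ¬ (m = 3 ∧ r ^ f = 2) := by
    rintro ⟨rfl, h⟩
    exact ha ⟨8, by omega, S0256.result (hF.trans h)⟩
  have D := dt_lin hr hf hF hm h42 hrp
  have hq : 2 ≤ r ^ f := hF ▸ Fintype.one_lt_card
  by_cases hQ : 1024 ≤ (r ^ f) ^ m
  · have h1 : ¬ (m = 2 ∧ r ^ f = 2) := fun h => by rw [h.1, h.2] at hQ; omega
    have h2 : ¬ (m = 2 ∧ r ^ f = 4) := fun h => by rw [h.1, h.2] at hQ; omega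
    refine D.row_gen hq hQ ?_ (by rw [dL, if_neg (by omega)]; omega)
    rw [zL, if_neg h1, if_neg h2]
    have h3 := cardL_le hF (show 2 ≤ m + 1 by omega)
    rw [card_sL hF (by omega)] at h3
    have h4 : Nat.gcd (m + 1) (r ^ f - 1) * (2 * f) ≤ (r ^ f) ^ 2 := by
      rw [sq]
      exact Nat.mul_le_mul ((Nat.gcd_le_right _ (by omega)).trans (Nat.sub_le _ _)) (two_mul_le hr.two_le)
    refine (Nat.mul_le_mul h3 h4).trans ?_
    rw [← pow_add, show (m + 1) ^ 2 - 1 = m ^ 2 + 2 * m from Nat.sub_eq_of_eq_add (by ring)]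
    exact Nat.pow_le_pow_right (by omega) (by nlinarith)
  obtain ⟨h3, h4, h5⟩ := small_range hr hf hm (not_le.1 hQ)
  refine (D.row_or hrp (tab_lin r h3 f h4 m h5 hf hm (not_le.1 hQ) h42)).elim id ?_
  rw [← hF]
  rintro (⟨rfl, h⟩ | ⟨rfl, h⟩)
  · exact H.lp2 F _ h
  · exact H.lp3 F _ (.inr h)

theorem box_psl (H : Small) : Box fun K _ => IsPSL K := by
  rintro p _ S _ _ _ ⟨F, _, _, n, hn, h2, ⟨e⟩⟩ hp ha
  obtain ⟨r, f, hr, hc, hf, hF⟩ := exists_char F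
  have hrp : r ≠ p := by
    rintro rfl
    exact hp (.inl ⟨F, _, _, hc, n, hn, h2, ⟨e⟩⟩)
  have ha' : ¬ IsAlternating (PL n F) := fun ⟨k, hk, ⟨e'⟩⟩ => ha ⟨k, hk, ⟨e.trans e'⟩⟩
  refine Row.of_equiv ?_ e
  rcases hn.eq_or_lt with rfl | h3
  · exact row_two H hr hf hF (hF ▸ h2 rfl) hrp
      (fun ⟨K, i1, i2, h1, k, h3, h4, ⟨e'⟩⟩ => hp (.inl ⟨K, i1, i2, h1, k, h3, h4, ⟨e.trans e'⟩⟩)) ha'
  · obtain ⟨m, rfl⟩ : ∃ m, n = m + 1 := ⟨n - 1, by omega⟩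
    exact row_lin H hr hf hF (by omega) hrp ha'

end Cfsg.Agent.TwoF.XL.Red
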