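import Cfsg.Agent.TwoF.XL.Red.Lin
import Cfsg.Agent.S0822
import Cfsg.Agent.S2090
import Cfsg.Agent.S2091
import Cfsg.Agent.S2092

/-!
# TwoF / XL, the reduction (2): unitary groups, `red` (helper30)
-/

set_option autoImplicit false
set_option maxHeartbeats 200000

namespace Cfsg.Agent.TwoF.XL.Red

open Cfsg.Agent.TwoF.XE Cfsg.Agent.TwoF.Gen Cfsg.Agent.TwoF.XS.Red

variable {p : ℕ} [Fact p.Prime]

/-- the order of `PSU_n(q)` -/
def sU (n q : ℕ) : ℕ := (q ^ (n * (n - 1) / 2) *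
  ∏ i ∈ Finset.range n, (if Even i then q ^ (i + 1) + 1 else q ^ (i + 1) - 1)) / (Nat.gcd n (q + 1) * (q + 1))

theorem card_sU {F : Type} [Field F] [Fintype F] {n q : ℕ} (hF : Fintype.card F = q ^ 2) (hn : 2 ≤ n) :
    Nat.card (PSU n F q) = sU n q :=
  eq_div_mul (Nat.gcd_pos_of_pos_left _ (by omega)) (by omega) (S0280.result hF n hn)

/-- the dimension bound -/
def dU (m q : ℕ) : ℕ := if (m = 3 ∧ (q = 2 ∨ q = 3)) ∨ (m = 5 ∧ q = 2) then 0 else (q - 1) * q ^ (m - 1)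
/-- the multiplier -/
def zU (m q : ℕ) : ℕ := if m = 3 ∧ q = 2 then 2 else if m = 3 ∧ q = 3 then 36 else if m = 5 ∧ q = 2 then 12 else
  Nat.gcd (m + 1) (q + 1)

set_option synthInstance.maxSize 100000 in
set_option synthInstance.maxHeartbeats 400000 in
theorem tab_uni : ∀ r ∈ [2, 3, 5, 7, 11, 13, 17, 19, 23, 29, 31], ∀ f < 5, ∀ m < 10, 1 ≤ f → 2 ≤ m → (r ^ f) ^ m < 1024 →
    ¬ (m + 1 = 3 ∧ r ^ f = 2) →
    big (dU m (r ^ f)) (zU m (r ^ f)) (sU (m + 1) (r ^ f)) (Nat.gcd (m + 1) (r ^ f + 1) * (2 * f)) = true ∧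
      ∀ t ∈ [2, 3, 5, 7, 11, 13, 17, 19, 23], t = r ∨
        ok (dU m (r ^ f)) (zU m (r ^ f)) (sU (m + 1) (r ^ f)) (Nat.gcd (m + 1) (r ^ f + 1) * (2 * f)) t = true ∨
        (t = 2 ∧ ((m + 1 = 3 ∧ (r ^ f = 3 ∨ r ^ f = 5 ∨ r ^ f = 7)) ∨ (m + 1 = 5 ∧ r ^ f = 3))) ∨
        (m = 2 ∧ ((r ^ f = 4 ∧ t = 5) ∨ (r ^ f = 5 ∧ t = 3))) ∨ (t = 2 ∧ m = 3 ∧ r ^ f = 3) ∨
        (t = 3 ∧ r ^ f = 2 ∧ (m = 3 ∨ (5 ≤ m + 1 ∧ m + 1 ≤ 8))) := by
  decide +kernel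

/-- the multiplier of `U₄(2)` -/
theorem mult_u42 {F : Type} [Field F] [Fintype F] (hF : Fintype.card F = 2 ^ 2) (K : Type) [Group K] [Finite K]
    (π : K →* PSU 4 F 2) (hπ : IsStemExtension π) : Nat.card π.ker ∣ 2 := by
  obtain ⟨e⟩ := S0822.result (K := ZMod 3) hF (ZMod.card 3)
  have h1 := MonoidHom.ker_mulEquiv_comp π e
  have h2 := card_ker_dvd' (S2092.result (ZMod.card 3) 2 le_rfl (fun _ => le_rfl) (by omega)) K
    ((e : PSU 4 F 2 →* PSp 2 (ZMod 3)).comp π) ⟨e.surjective.comp hπ.1, h1 ▸ hπ.2.1, h1 ▸ hπ.2.2⟩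
  rwa [h1] at h2

theorem dt_uni {F : Type} [Field F] [Fintype F] {r f m : ℕ} (hr : r.Prime) (hf : 1 ≤ f)
    (hF : Fintype.card F = (r ^ f) ^ 2) (hm : 2 ≤ m) (h32 : ¬ (m + 1 = 3 ∧ r ^ f = 2)) (hrp : r ≠ p) :
    Dt p (PSU (m + 1) F (r ^ f)) (dU m (r ^ f)) (zU m (r ^ f)) (sU (m + 1) (r ^ f))
      (Nat.gcd (m + 1) (r ^ f + 1) * (2 * f)) := by
  have := finU (m + 1) F (r ^ f)
  have he : ¬ (m = 3 ∧ r ^ f = 2) → ¬ (m = 3 ∧ r ^ f = 3) → ¬ (m = 5 ∧ r ^ f = 2) → ¬ ExU (m + 1) (r ^ f) :=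
    fun h1 h2 h3 => by
      simp only [ExU, Set.mem_insert_iff, Set.mem_singleton_iff, Prod.mk.injEq]
      omega
  refine dt_mk ?_ (fun K _ _ π hπ => ?_) ?_ (card_sU hF (by omega)) (outU hr hf rfl hF (by omega) h32)
    (centerU hF (by omega) h32)
  · unfold dU
    split_ifs with h
    · exact lb_zero
    · exact lbU hF (not_dvd_pow hr hrp) (by omega) h32 (he (by omega) (by omega) (by omega))
  · unfold zU
    split_ifs with h h' h''
    · obtain ⟨rfl, h⟩ := h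
      generalize r ^ f = q at *
      subst h
      exact mult_u42 hF K π hπ
    · obtain ⟨rfl, h'⟩ := h'
      generalize r ^ f = q at *
      subst h'
      exact (card_ker_dvd (S2090.result hF) K π hπ).trans (card_prod3 4 3 3).dvd
    · obtain ⟨rfl, h''⟩ := h''
      generalize r ^ f = q at *
      subst h''
      exact (card_ker_dvd (S2091.result hF) K π hπ).trans (card_prod3 3 2 2).dvd
    · exact card_ker_dvd' (S2089.result (m + 1) _ hF (by omega) h32 (he h h' h'')) K π hπ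
  · unfold zU
    split_ifs <;> positivity

theorem box_psu (H : Small) : Box fun K _ => IsPSU K := by
  rintro p _ S _ _ _ ⟨F, _, _, n, q, hF, hn, h32, ⟨e⟩⟩ hp -
  obtain ⟨r, f, hr, hc, rfl, hf⟩ := LieClassical.HermBasic.exists_prime_pow hF
  have hrp : r ≠ p := by
    rintro rfl
    exact hp (.inr <| .inr <| .inl ⟨F, _, _, hc, n, _, hF, hn, h32, ⟨e⟩⟩)
  obtain ⟨m, rfl⟩ : ∃ m, n = m + 1 := ⟨n - 1, by omega⟩
  have := finU (m + 1) F (r ^ f)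
  refine Row.of_equiv ?_ e
  have hm : 2 ≤ m := by omega
  have D := dt_uni hr hf hF hm h32 hrp
  have hq : 2 ≤ r ^ f := hr.two_le.trans (Nat.le_self_pow (by omega) r)
  by_cases hQ : 1024 ≤ (r ^ f) ^ m
  · have h1 : ¬ (m = 3 ∧ r ^ f = 2) := fun h => by rw [h.1, h.2] at hQ; omega
    have h2 : ¬ (m = 3 ∧ r ^ f = 3) := fun h => by rw [h.1, h.2] at hQ; omega
    have h5 : ¬ (m = 5 ∧ r ^ f = 2) := fun h => by rw [h.1, h.2] at hQ; omega
    refine D.row_gen hq hQ ?_ ?_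
    · rw [zU, if_neg h1, if_neg h2, if_neg h5]
      have h3 := cardU_le hF (show 2 ≤ m + 1 by omega)
      rw [card_sU hF (by omega)] at h3
      have h4 : Nat.gcd (m + 1) (r ^ f + 1) * (2 * f) ≤ (r ^ f) ^ (2 + 1) := by
        rw [pow_succ]
        refine Nat.mul_le_mul ((Nat.gcd_le_right _ (by omega)).trans ?_) (two_mul_le hr.two_le)
        nlinarith
      refine (Nat.mul_le_mul h3 h4).trans ?_
      rw [← pow_add, show (m + 1) ^ 2 - 1 = m ^ 2 + 2 * m from Nat.sub_eq_of_eq_add (by ring)]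
      exact Nat.pow_le_pow_right (by omega) (by nlinarith)
    · rw [dU, if_neg (by omega)]
      obtain ⟨k, rfl⟩ : ∃ k, m = k + 1 := ⟨m - 1, by omega⟩
      rw [Nat.add_sub_cancel, pow_succ']
      have h3 : r ^ f * (r ^ f) ^ k ≤ (2 * (r ^ f - 1)) * (r ^ f) ^ k := Nat.mul_le_mul_right _ (by omega)
      rw [mul_assoc] at h3
      omega
  obtain ⟨h3, h4, h5⟩ := small_range hr hf hm (not_le.1 hQ)
  refine (D.row_or hrp (tab_uni r h3 f h4 m h5 hf hm (not_le.1 hQ) h32)).elim id ?_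
  generalize r ^ f = q at *
  rintro (⟨rfl, h⟩ | ⟨rfl, h⟩ | ⟨rfl, rfl, rfl⟩ | ⟨rfl, rfl, rfl | h⟩)
  · exact H.up2 F _ q hF h
  · exact H.up3 p F q hF h
  · exact H.ufour F hF
  · obtain ⟨e'⟩ := S0822.result (K := ZMod 3) hF (ZMod.card 3)
    exact (hp (.inr <| .inl ⟨ZMod 3, inferInstance, inferInstance, inferInstance, 2, le_rfl,
      fun _ => (ZMod.card 3).ge, ⟨e.trans e'⟩⟩)).elim
  · exact H.utwo F _ hF h.1 h.2

end Cfsg.Agent.TwoF.XL.Red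

/-- **the reduction to the small rows** -/
theorem Cfsg.Agent.TwoF.XL.red : Cfsg.Agent.TwoF.XL.Red := fun H =>
  ⟨Cfsg.Agent.TwoF.XL.Red.box_psl H, Cfsg.Agent.TwoF.XL.Red.box_psu H⟩
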